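import Cfsg.Agent.H545.BR.Str
import Cfsg.Agent.H813.Af.MinType
import Cfsg.Prelude.Def_GeometricClasses
import Cfsg.Prelude.Def_LieTypeChar

/-!
# HUB BR, C8: the structure of `H` (helper50)
-/

set_option autoImplicit false

namespace Cfsg.Agent.H50.BR

open Cfsg.Agent.H883.BR Cfsg.Agent.H192.Af Cfsg.Agent.H545.BR

universe u v w

/-- statement C4 -/
def StClassTwo : Prop := ∀ n : ℕ, ∃ B : ℕ, ∀ (K : Type u) [Field K] [IsAlgClosed K] (G : Type w) [Group G] [Finite G]
    (V : Type v) [AddCommGroup V] [Module K V] [FiniteDimensional K V] (ρ : G →* Module.End K V),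
    Module.finrank K V = n → Function.Injective ρ → ∀ H M : Subgroup G, M ≤ H →
    (∀ h ∈ H, ∀ m ∈ M, h * m * h⁻¹ ∈ M) → Irr ρ M →
    (∀ a ∈ M, ∀ b ∈ M, ∀ c ∈ M, c * (a * b * a⁻¹ * b⁻¹) = a * b * a⁻¹ * b⁻¹ * c) →
    ∀ y ∈ H, ∃ k, 0 < k ∧ k ≤ B ∧ ∃ c : K, ρ (y ^ k) = c • 1

/-- statement C7 -/
def StBigLie : Prop := ∀ n : ℕ, ∃ B : ℕ, ∀ (p : ℕ) (_ : p.Prime) (E : Type u) [Field E] [Finite E] [CharP E p]
    (T : Type w) [Group T] [Finite T] [IsSimpleGroup T], ¬ IsMulCommutative T → B ≤ Nat.card T →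
    ∀ P : Subgroup (Matrix.GeneralLinearGroup (Fin n) E), ⁅P, P⁆ = P →
    Nonempty ((P ⧸ (Cfsg.Geo.scalars (Fin n) E).subgroupOf P) ≃* T) → Cfsg.IsLieTypeChar p T

section

variable {K : Type u} [Field K] {G : Type w} [Group G] {V : Type v} [AddCommGroup V] [Module K V]
  {ρ : G →* Module.End K V}

/-- abelian normal subgroups of a dense subgroup are scalar -/
theorem abelian_scalar [FiniteDimensional K V] (hT : TPrim ρ) {H A : Subgroup G} (hD : Dns (ad ρ) H) (hirr : Irr ρ H)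
    (hA : A ≤ H) (hn : ∀ h ∈ H, ∀ a ∈ A, h * a * h⁻¹ ∈ A) (hab : ∀ a ∈ A, ∀ b ∈ A, a * b = b * a) :
    ∀ a ∈ A, ∃ c : K, ρ a = c • 1 := by
  have hinv : Inv (ad ρ) H (cent ρ A) := by
    intro h hh X hX n hnA
    rw [ad_apply]
    have h1 : h⁻¹ * n * h ∈ A := by
      have := hn h⁻¹ (H.inv_mem hh) n hnA
      rwa [inv_inv] at this
    have h2 : ρ h⁻¹ * ρ n = ρ (h⁻¹ * n * h) * ρ h⁻¹ := by
      rw [← map_mul, ← map_mul]
      congr 1
      group
    have h3 : ρ h * ρ (h⁻¹ * n * h) = ρ n * ρ h := by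
      rw [← map_mul, ← map_mul]
      congr 1
      group
    calc ρ h * X * ρ h⁻¹ * ρ n = ρ h * X * (ρ h⁻¹ * ρ n) := by rw [mul_assoc]
      _ = ρ h * (X * ρ (h⁻¹ * n * h)) * ρ h⁻¹ := by rw [h2]; simp only [mul_assoc]
      _ = ρ h * ρ (h⁻¹ * n * h) * X * ρ h⁻¹ := by rw [hX _ h1]; simp only [mul_assoc]
      _ = ρ n * (ρ h * X * ρ h⁻¹) := by rw [h3]; simp only [mul_assoc]
  rcases hT A (ssm_of_normal hirr hA hn) (hD _ hinv) with h | h
  · exact h
  · intro a ha
    exact h (ρ a) fun n hnA => by rw [← map_mul, ← map_mul, hab a ha n hnA]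

theorem irr_of_dns {H : Subgroup G} (hD : Dns ρ H) (hirr : Irr ρ ⊤) : Irr ρ H :=
  ⟨hirr.1, fun U hU => hirr.2 U (hD U hU)⟩

end

/-- a representation of a finite group over a locally finite field is defined over a finite field -/
theorem exists_mat {K : Type u} [Field K] (lf : ∀ S : Set K, S.Finite → ∃ E : Subfield K, Finite E ∧ S ⊆ E)
    {V : Type v} [AddCommGroup V] [Module K V] [FiniteDimensional K V] {n : ℕ} (hn : Module.finrank K V = n)
    (hpos : 0 < n) {M : Type w} [Group M] [Finite M] (ρ : M →* Module.End K V) :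
    ∃ (E : Subfield K) (_ : Finite E) (φ : M →* Matrix.GeneralLinearGroup (Fin n) E),
      ∀ g, (∃ c : K, ρ g = c • 1) ↔ φ g ∈ Cfsg.Geo.scalars (Fin n) E := by
  classical
  let b : Module.Basis (Fin n) K V := Module.finBasisOfFinrankEq K V hn
  obtain ⟨E, hE, hS⟩ := lf (Set.range fun t : M × Fin n × Fin n => LinearMap.toMatrix b b (ρ t.1) t.2.1 t.2.2)
    (Set.finite_range _)
  have hS' : ∀ (g : M) (i j : Fin n), LinearMap.toMatrix b b (ρ g) i j ∈ E := fun g i j => hS ⟨(g, i, j), rfl⟩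
  let A : M → Matrix (Fin n) (Fin n) E := fun g => Matrix.of fun i j => ⟨LinearMap.toMatrix b b (ρ g) i j, hS' g i j⟩
  have hA : ∀ g, (A g).map (fun x : E => (x : K)) = LinearMap.toMatrix b b (ρ g) := fun g => rfl
  have hinj : Function.Injective fun X : Matrix (Fin n) (Fin n) E => X.map (fun x : E => (x : K)) :=
    Matrix.map_injective Subtype.val_injective
  have hmap_mul : ∀ X Y : Matrix (Fin n) (Fin n) E, (X * Y).map (fun x : E => (x : K)) =
      X.map (fun x : E => (x : K)) * Y.map (fun x : E => (x : K)) := fun X Y => Matrix.map_mul (f := E.subtype)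
  have hmap_one : (1 : Matrix (Fin n) (Fin n) E).map (fun x : E => (x : K)) = 1 :=
    Matrix.map_one _ rfl rfl
  let ψ : M →* Matrix (Fin n) (Fin n) E :=
    { toFun := A
      map_one' := by
        apply hinj
        change (A 1).map (fun x : E => (x : K)) = (1 : Matrix (Fin n) (Fin n) E).map (fun x : E => (x : K))
        rw [hA, hmap_one, map_one]
        exact LinearMap.toMatrix_one b
      map_mul' := fun g h => by
        apply hinj
        change (A (g * h)).map (fun x : E => (x : K)) = (A g * A h).map (fun x : E => (x : K))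
        rw [hmap_mul, hA, hA, hA, map_mul]
        exact LinearMap.toMatrix_mul b _ _ }
  refine ⟨E, hE, ψ.toHomUnits, fun g => ?_⟩
  rw [Cfsg.Geo.mem_scalars_iff]
  have hψ : ((ψ.toHomUnits g : Matrix.GeneralLinearGroup (Fin n) E) : Matrix (Fin n) (Fin n) E) = A g := rfl
  rw [hψ]
  constructor
  · rintro ⟨c, hc⟩
    have h1 : LinearMap.toMatrix b b (ρ g) = c • 1 := by
      rw [hc, map_smul]
      exact congrArg _ (LinearMap.toMatrix_one b)
    have h2 : c ∈ E := by
      have h3 := hS' g ⟨0, hpos⟩ ⟨0, hpos⟩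
      rw [h1, Matrix.smul_apply, Matrix.one_apply_eq, smul_eq_mul, mul_one] at h3
      exact h3
    have h0 : (⟨c, h2⟩ : E) ≠ 0 := by
      intro h0
      have h3 : c = 0 := congrArg Subtype.val h0
      have h4 : ρ g = 0 := by rw [hc, h3, zero_smul]
      have h5 : (1 : Module.End K V) = 0 := by
        rw [← map_one ρ, ← mul_inv_cancel g, map_mul, h4, zero_mul]
      have h6 : Nontrivial V := by
        have : 0 < Module.finrank K V := by omega
        exact Module.nontrivial_of_finrank_pos this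
      exact one_ne_zero h5
    refine ⟨Units.mk0 _ h0, ?_⟩
    apply hinj
    change (A g).map (fun x : E => (x : K)) = ((⟨c, h2⟩ : E) • (1 : Matrix (Fin n) (Fin n) E)).map (fun x : E => (x : K))
    rw [hA, h1]
    ext i j
    rw [Matrix.map_apply, Matrix.smul_apply, Matrix.smul_apply, Matrix.one_apply, Matrix.one_apply]
    split_ifs
    · rw [smul_eq_mul, mul_one, smul_eq_mul, mul_one]
    · rw [smul_zero, smul_zero]
      rfl
  · rintro ⟨c, hc⟩
    refine ⟨((c : E) : K), ?_⟩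
    apply (LinearMap.toMatrix b b).injective
    rw [map_smul, ← hA g, hc]
    have h1 : LinearMap.toMatrix b b (1 : Module.End K V) = 1 := LinearMap.toMatrix_one b
    rw [h1]
    ext i j
    rw [Matrix.map_apply, Matrix.smul_apply, Matrix.smul_apply, Matrix.one_apply, Matrix.one_apply]
    split_ifs
    · rw [smul_eq_mul, mul_one, smul_eq_mul, mul_one]
    · rw [smul_zero, smul_zero]
      rfl

/-- C7 for an abstract perfect linear group -/
theorem lie_of_big {n B p : ℕ} (hp : p.Prime) (hB : ∀ (p : ℕ) (_ : p.Prime) (E : Type u) [Field E] [Finite E] [CharP E p]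
    (T : Type w) [Group T] [Finite T] [IsSimpleGroup T], ¬ IsMulCommutative T → B ≤ Nat.card T →
    ∀ P : Subgroup (Matrix.GeneralLinearGroup (Fin n) E), ⁅P, P⁆ = P →
    Nonempty ((P ⧸ (Cfsg.Geo.scalars (Fin n) E).subgroupOf P) ≃* T) → Cfsg.IsLieTypeChar p T)
    {K : Type u} [Field K] [CharP K p] (lf : ∀ S : Set K, S.Finite → ∃ E : Subfield K, Finite E ∧ S ⊆ E)
    {V : Type v} [AddCommGroup V] [Module K V] [FiniteDimensional K V] (hn : Module.finrank K V = n)
    (hpos : 0 < n) {M : Type w} [Group M] [Finite M] (ρ : M →* Module.End K V) (hM : commutator M = ⊤)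
    (hz : ∀ z : M, z ∈ Subgroup.center M ↔ ∃ c : K, ρ z = c • 1) [IsSimpleGroup (M ⧸ Subgroup.center M)]
    (hna : ¬ IsMulCommutative (M ⧸ Subgroup.center M)) (hc : B ≤ Nat.card (M ⧸ Subgroup.center M)) :
    Cfsg.IsLieTypeChar p (M ⧸ Subgroup.center M) := by
  classical
  obtain ⟨E, _, φ, hφ⟩ := exists_mat lf hn hpos ρ
  have : CharP E p := inferInstance
  refine hB p hp E _ hna hc φ.range ?_ ⟨?_⟩
  · rw [MonoidHom.range_eq_map, ← Subgroup.map_commutator, ← commutator_def, hM]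
  · let f : M →* φ.range ⧸ (Cfsg.Geo.scalars (Fin n) E).subgroupOf φ.range :=
      (QuotientGroup.mk' _).comp φ.rangeRestrict
    have hf : Function.Surjective f :=
      (QuotientGroup.mk'_surjective _).comp φ.rangeRestrict_surjective
    have hk : f.ker = Subgroup.center M := by
      ext x
      rw [MonoidHom.mem_ker]
      change QuotientGroup.mk' _ (φ.rangeRestrict x) = 1 ↔ _
      rw [QuotientGroup.mk'_apply, QuotientGroup.eq_one_iff, Subgroup.mem_subgroupOf, hz x, hφ x]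
      rfl
    exact ((QuotientGroup.quotientMulEquivOfEq hk.symm).trans (QuotientGroup.quotientKerEquivOfSurjective f hf)).symm

/-- **C8: the structure of `H`.** -/
theorem str (hC4 : StClassTwo.{u, v, w}) (hC7 : StBigLie.{u, w}) (n : ℕ) : ∃ B : ℕ, ∀ (p : ℕ) (_ : p.Prime)
    (K : Type u) [Field K] [CharP K p] [IsAlgClosed K]
    (_ : ∀ S : Set K, S.Finite → ∃ E : Subfield K, Finite E ∧ S ⊆ E)
    (G : Type w) [Group G] [Finite G] (V : Type v) [AddCommGroup V] [Module K V] [FiniteDimensional K V]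
    (ρ : G →* Module.End K V), Module.finrank K V = n → 2 ≤ n → Function.Injective ρ → QS G → Irr ρ ⊤ → TPrim ρ →
    ∀ H : Subgroup G, Dns (ad (ad ρ)) H → ∀ y ∈ H, (∀ k, 0 < k → k ≤ B → ¬ ∃ c : K, ρ (y ^ k) = c • 1) →
    ∃ M : Subgroup G, M ≤ H ∧ (∀ h ∈ H, ∀ m ∈ M, h * m * h⁻¹ ∈ M) ∧ Dns (ad ρ) M ∧ Irr ρ M ∧ commutator M = ⊤ ∧
      IsSimpleGroup (M ⧸ Subgroup.center M) ∧ ¬ IsMulCommutative (M ⧸ Subgroup.center M) ∧
      Cfsg.IsLieTypeChar p (M ⧸ Subgroup.center M) ∧ ∀ z : M, z ∈ Subgroup.center M ↔ ∃ c : K, ρ z = c • 1 := by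
  classical
  obtain ⟨B4, hB4⟩ := hC4 n
  obtain ⟨B7, hB7⟩ := hC7 n
  refine ⟨max (max B4 1) B7.factorial, ?_⟩
  intro p hp K _ _ _ lf G _ _ V _ _ _ ρ hn h2n hinj hG hirr hT H hD y hy hk
  have hD1 : Dns (ad ρ) H := dns_of_ad hD
  have hirrH : Irr ρ H := irr_of_dns (dns_of_ad hD1) hirr
  -- abelian normal subgroups are scalar
  have habel : ∀ A : Subgroup G, A ≤ H → (∀ h ∈ H, ∀ a ∈ A, h * a * h⁻¹ ∈ A) → (∀ a ∈ A, ∀ b ∈ A, a * b = b * a) →
      ∀ a ∈ A, ∀ g : G, a * g = g * a := by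
    intro A hA hnA hab a ha g
    obtain ⟨c, hc⟩ := abelian_scalar hT hD1 hirrH hA hnA hab a ha
    apply hinj
    rw [map_mul, map_mul, hc, smul_mul_assoc, one_mul, mul_smul_comm, mul_one]
  -- `H` is not abelian
  have hHna : ¬ IsMulCommutative (⊤ : Subgroup H) := by
    intro hcomm
    have h1 : ∀ a ∈ H, ∀ b ∈ H, a * b = b * a := by
      intro a ha b hb
      have h2 := hcomm.is_comm.comm (⟨⟨a, ha⟩, trivial⟩ : (⊤ : Subgroup H)) ⟨⟨b, hb⟩, trivial⟩
      exact congrArg (fun t : (⊤ : Subgroup H) => ((t : H) : G)) h2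
    obtain ⟨c, hc⟩ := abelian_scalar hT hD1 hirrH le_rfl
      (fun h hh a ha => H.mul_mem (H.mul_mem hh ha) (H.inv_mem hh)) h1 y hy
    exact hk 1 one_pos (le_max_of_le_left (le_max_right _ _)) ⟨c, by rw [pow_one, hc]⟩
  -- a minimal non-abelian normal subgroup
  obtain ⟨M₀, ⟨hM₀n, hM₀na⟩, hmin⟩ := (Set.toFinite
    {N : Subgroup H | N.Normal ∧ ¬ IsMulCommutative N}).exists_minimal ⟨⊤, inferInstance, hHna⟩
  have hM₀ : MinNA M₀ := by
    refine ⟨hM₀n, hM₀na, ?_⟩
    intro L hL hLM k hkL m _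
    have hLab : IsMulCommutative L := by
      by_contra h
      exact hLM.not_ge (hmin ⟨hL, h⟩ hLM.le)
    have h1 := habel (L.map H.subtype) (Subgroup.map_subtype_le L) (by
      rintro h hh _ ⟨a, ha, rfl⟩
      exact ⟨⟨h, hh⟩ * a * ⟨h, hh⟩⁻¹, hL.conj_mem a ha ⟨h, hh⟩, rfl⟩) (by
      rintro _ ⟨a, ha, rfl⟩ _ ⟨b, hb, rfl⟩
      have h2 := hLab.is_comm.comm (⟨a, ha⟩ : L) ⟨b, hb⟩
      exact congrArg (fun t : L => ((t : H) : G)) h2) k ⟨k, hkL, rfl⟩ m
    exact Subtype.ext h1
  -- the subgroup of `G`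
  obtain ⟨M, hMdef⟩ : ∃ M : Subgroup G, M = M₀.map H.subtype := ⟨_, rfl⟩
  have hMH : M ≤ H := by rw [hMdef]; exact Subgroup.map_subtype_le M₀
  have hMn : ∀ h ∈ H, ∀ m ∈ M, h * m * h⁻¹ ∈ M := by
    rw [hMdef]
    rintro h hh _ ⟨a, ha, rfl⟩
    exact ⟨⟨h, hh⟩ * a * ⟨h, hh⟩⁻¹, hM₀n.conj_mem a ha ⟨h, hh⟩, rfl⟩
  have e : M₀ ≃* M := (M₀.equivMapOfInjective H.subtype H.subtype_injective).trans
    (MulEquiv.subgroupCongr hMdef.symm)
  have hMc : ¬ M ≤ Subgroup.center G := by
    intro h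
    apply hM₀na
    refine ⟨⟨fun a b => ?_⟩⟩
    apply e.injective
    rw [map_mul, map_mul]
    exact Subtype.ext (Subgroup.mem_center_iff.1 (h (e b).2) (e a))
  have hDM : Dns (ad ρ) M := dns_normal hG hD hMH hMn hMc
  have hirrM : Irr ρ M := irr_of_dns (dns_normal hG hD1 hMH hMn hMc) hirr
  have hzM : ∀ z : M, z ∈ Subgroup.center M ↔ ∃ c : K, ρ z = c • 1 := by
    intro z
    constructor
    · intro hz
      refine cent_scalar hirrM (X := ρ z) fun m hm => ?_
      rw [← map_mul, ← map_mul]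
      have := congrArg Subtype.val (Subgroup.mem_center_iff.1 hz ⟨m, hm⟩)
      exact congrArg ρ this.symm
    · rintro ⟨c, hc⟩
      rw [Subgroup.mem_center_iff]
      intro m
      apply Subtype.ext
      apply hinj
      change ρ ((m : G) * z) = ρ (z * m)
      rw [map_mul, map_mul, hc, smul_mul_assoc, one_mul, mul_smul_comm, mul_one]
  rcases Cfsg.Agent.H813.Af.minNA_type hM₀ with ⟨r, -, hr⟩ | ⟨hperf, T, _, _, s, hTs, hTna, hs, ⟨eT⟩⟩
  · -- class two
    exfalso
    obtain ⟨k, hk0, hkB, hks⟩ := hB4 K G V ρ hn hinj H M hMH hMn hirrM (by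
      intro a ha b hb c hc
      obtain ⟨a', ha'⟩ := e.surjective ⟨a, ha⟩
      obtain ⟨b', hb'⟩ := e.surjective ⟨b, hb⟩
      obtain ⟨c', hc'⟩ := e.surjective ⟨c, hc⟩
      have h1 := Subgroup.mem_center_iff.1 ((hr a').2 b') c'
      have h2 := congrArg (fun t => ((e t : M) : G)) h1
      simp only [map_mul, map_inv, ha', hb', hc'] at h2
      exact h2) y hy
    exact hk k hk0 (hkB.trans (le_max_of_le_left (le_max_left _ _))) hks
  · -- perfect
    have hMperf : commutator M = ⊤ := by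
      rw [eq_top_iff]
      have h1 : (⊤ : Subgroup M) = (commutator M₀).map e.toMonoidHom := by
        rw [hperf, ← MonoidHom.range_eq_map]
        exact (MonoidHom.range_eq_top.2 e.surjective).symm
      rw [h1, commutator_def, Subgroup.map_commutator, commutator_def]
      exact Subgroup.commutator_mono le_top le_top
    have hcen : (Subgroup.center M₀).map e.toMonoidHom = Subgroup.center M := by
      ext x
      constructor
      · rintro ⟨z, hz, rfl⟩
        rw [Subgroup.mem_center_iff]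
        intro m
        obtain ⟨m', rfl⟩ := e.surjective m
        change e m' * e z = e z * e m'
        rw [← map_mul, ← map_mul, Subgroup.mem_center_iff.1 hz m']
      · intro hx
        refine ⟨e.symm x, ?_, e.apply_symm_apply x⟩
        change e.symm x ∈ Subgroup.center M₀
        rw [Subgroup.mem_center_iff]
        intro m
        apply e.injective
        rw [map_mul, map_mul, e.apply_symm_apply]
        exact Subgroup.mem_center_iff.1 hx (e m)
    have e1 : M ⧸ Subgroup.center M ≃* (Fin s → T) :=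
      (QuotientGroup.congr (Subgroup.center M₀) (Subgroup.center M) e hcen).symm.trans eT
    have hs1 : s = 1 := one_component hinj hT hirrM hDM hMperf hTna hs e1
    subst hs1
    have e2 : M ⧸ Subgroup.center M ≃* T := e1.trans (MulEquiv.funUnique (Fin 1) T)
    have hsimp : IsSimpleGroup (M ⧸ Subgroup.center M) := by
      have : Nontrivial (M ⧸ Subgroup.center M) := e2.toEquiv.nontrivial
      exact IsSimpleGroup.isSimpleGroup_of_surjective e2.symm.toMonoidHom e2.symm.surjective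
    have hna : ¬ IsMulCommutative (M ⧸ Subgroup.center M) := by
      intro h
      apply hTna
      refine ⟨⟨fun a b => ?_⟩⟩
      apply e2.symm.injective
      rw [map_mul, map_mul]
      exact h.is_comm.comm _ _
    refine ⟨M, hMH, hMn, hDM, hirrM, hMperf, hsimp, hna, ?_, hzM⟩
    refine lie_of_big hp hB7 lf hn (by omega) (ρ.comp M.subtype) hMperf hzM hna ?_
    by_contra hlt
    push Not at hlt
    obtain ⟨k, hk0, hkB, hks⟩ := small_comp hMH hMn hirrM hMperf hy
    refine hk k hk0 (hkB.trans ?_) hks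
    exact (Nat.factorial_le hlt.le).trans (le_max_right _ _)

end Cfsg.Agent.H50.BR
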